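import Cfsg.Agent.H31.RankTwo.RegularLift
import Cfsg.Agent.H31.RankTwo.Frame
import Cfsg.Agent.H20.BrauerFeit.Main
import Cfsg.Agent.H56.ContribRankTwo

/-!
# A bound on a block from a major subsection with a known lattice below
-/

set_option autoImplicit false
set_option linter.unusedSectionVars false
set_option maxHeartbeats 1000000

open scoped ComplexConjugate
open Matrix

namespace Cfsg.Agent.H31.RankTwo

open Cfsg
open Cfsg.Agent.H56.Subsec (CZ yC mem' mem_mem' cont scal mult)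
open Cfsg.Agent.H42 (regRes)
open Cfsg.Agent.H44 (inflate)
open Cfsg.Agent.H40 (quotSet)
open scoped Classical

/-- Coordinates of the regular parts of a set of characters in a family of size its rank. -/
structure Shape (p : ℕ) {H : Type*} [Group H] (bb : Set (Cfsg.IrrCharacter H)) (e : ℕ) where
  /-- the family -/
  r : Fin e → H → ℂ
  /-- the coordinates -/
  D : Cfsg.IrrCharacter H → Fin e → ℤ
  dec : ∀ φ ∈ bb, regRes p (φ : H → ℂ) = ∑ i, (D φ i : ℂ) • r i
  rank : Cfsg.blockRank p bb = e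

/-- The Gram matrix of the coordinates. -/
noncomputable def Shape.gram {p : ℕ} {H : Type*} [Group H] [Finite H]
    {bb : Set (Cfsg.IrrCharacter H)} {e : ℕ} (S : Shape p bb e) : Matrix (Fin e) (Fin e) ℤ :=
  Matrix.of fun i j => ∑ᶠ φ ∈ bb, S.D φ i * S.D φ j

/-- Linear independence from the rank. -/
theorem Shape.indep {p : ℕ} {H : Type*} [Group H] [Fintype H] {bb : Set (Cfsg.IrrCharacter H)}
    {e : ℕ} (S : Shape p bb e) : LinearIndependent ℂ S.r ∧
      Submodule.span ℂ (Set.range S.r) =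
        Submodule.span ℂ ((fun χ : Cfsg.IrrCharacter H => regRes p (χ : H → ℂ)) '' bb) := by
  have hle : Submodule.span ℂ ((fun χ : Cfsg.IrrCharacter H => regRes p (χ : H → ℂ)) '' bb) ≤
      Submodule.span ℂ (Set.range S.r) := by
    rw [Submodule.span_le]
    rintro _ ⟨φ, hφ, rfl⟩
    show regRes p (φ : H → ℂ) ∈ _
    rw [S.dec φ hφ]
    exact Submodule.sum_mem _ fun i _ => Submodule.smul_mem _ _ (Submodule.subset_span ⟨i, rfl⟩)
  have hr : Module.finrank ℂ (Submodule.span ℂ
      ((fun χ : Cfsg.IrrCharacter H => regRes p (χ : H → ℂ)) '' bb)) = e := by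
    conv_rhs => rw [← S.rank]
    rw [Cfsg.blockRank]
    rw [show (fun χ : Cfsg.IrrCharacter H => Cfsg.pRegularPart p (χ : H → ℂ)) =
      fun χ : Cfsg.IrrCharacter H => regRes p (χ : H → ℂ) from
      funext fun χ => H42.pRegularPart_eq_regRes p _]
  have hc : (Set.range S.r).finrank ℂ ≤ e :=
    (finrank_range_le_card S.r).trans_eq (Fintype.card_fin e)
  have he : (Set.range S.r).finrank ℂ = e :=
    le_antisymm hc (hr.ge.trans (Submodule.finrank_mono hle))
  exact ⟨linearIndependent_iff_card_eq_finrank_span.2 (by rw [he, Fintype.card_fin]),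
    (Submodule.eq_of_le_of_finrank_eq hle (hr.trans he.symm)).symm⟩

variable {G : Type*} [Group G] [Fintype G] {p : ℕ} [hp : Fact p.Prime] {M : Ideal Cfsg.AlgInt}
  {y : G} {b : Set (Cfsg.IrrCharacter (CZ y))} {B : Set (Cfsg.IrrCharacter G)}

theorem zpowers_yC_le_center : Subgroup.zpowers (yC y) ≤ Subgroup.center (CZ y) := by
  rw [Subgroup.zpowers_le, Subgroup.mem_center_iff]
  exact H56.Subsec.commute_yC y

/-- The bound. -/
theorem two_mul_card_le (hM : Cfsg.IsPModular p M) (hy : ∃ k : ℕ, orderOf y = p ^ k)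
    (hind : Cfsg.IsInducedBlock M (CZ y) b B)
    (hbd : Cfsg.blockDefect p b = Cfsg.blockDefect p B) [(Subgroup.zpowers (yC y)).Normal]
    {e : ℕ} (S : Shape p (quotSet (Subgroup.zpowers (yC y)) b) e)
    {n : ℕ} (a : Fin n → Fin e → ℤ) (hsum : ∀ i, ∑ t, a t i = 0)
    (hinj : ∀ v : Fin e → ℂ, (∀ t, ∑ i, (a t i : ℂ) * v i = 0) → v = 0) :
    2 * (Nat.card B : ℤ) ≤ (orderOf y : ℤ) * ∑ t, ∑ i, ∑ j, a t i * S.gram i j * a t j := by
  have := hM.2.1
  let Q := Subgroup.zpowers (yC y)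
  set d := Cfsg.blockDefect p b with hd
  have hQ : IsPGroup p Q := by
    obtain ⟨k, hk⟩ := hy
    exact IsPGroup.of_card (n := k) (by rw [Nat.card_zpowers, ← Subgroup.orderOf_coe]; exact hk)
  have hQcard : Nat.card Q = orderOf y := by
    rw [Nat.card_zpowers, ← Subgroup.orderOf_coe]; rfl
  have hQc : Q ≤ Subgroup.center (CZ y) := zpowers_yC_le_center
  have hsup : Q ⊔ Subgroup.centralizer (Q : Set (CZ y)) = ⊤ := H20.BrauerFeit.sup_centralizer_yC y
  have : Fintype (CZ y ⧸ Q) := Fintype.ofFinite _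
  have hqb := H20.BrauerFeit.isPBlock_quotSet hM hind.1 hQ hsup
  let bb := quotSet Q b
  set t0 := H42.blockFinset bb with ht0
  -- the family above
  let L : (CZ y ⧸ Q → ℂ) →ₗ[ℂ] (CZ y → ℂ) :=
    { toFun := fun f g => if p ∣ orderOf g then 0 else f (g : CZ y ⧸ Q)
      map_add' := fun f f' => funext fun g => by simp only [Pi.add_apply]; split_ifs <;> simp
      map_smul' := fun c f => funext fun g => by
        simp only [Pi.smul_apply, RingHom.id_apply]; split_ifs <;> simp }
  have hL : ∀ φ : Cfsg.IrrCharacter (CZ y ⧸ Q),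
      L (regRes p (φ : CZ y ⧸ Q → ℂ)) = regRes p (inflate Q φ : CZ y → ℂ) := by
    intro φ
    funext g
    show (if p ∣ orderOf g then 0 else regRes p (φ : CZ y ⧸ Q → ℂ) (g : CZ y ⧸ Q)) = _
    by_cases hg : p ∣ orderOf g
    · rw [if_pos hg, H42.regRes_of_singular hg]
    · rw [if_neg hg, H42.regRes_of_regular hg,
        H42.regRes_of_regular (fun h => hg (h.trans (H40.orderOf_mk_dvd g))), H44.inflate_apply]
  obtain ⟨hSind, hSspan⟩ := S.indep
  set r : Fin e → CZ y → ℂ := fun i => L (S.r i) with hr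
  have hrind : LinearIndependent ℂ r := by
    refine hSind.map (f := L) ?_
    rw [hSspan, Submodule.disjoint_def]
    intro f hf hf0
    have hsing : ∀ q, p ∣ orderOf q → f q = 0 := by
      intro q hq
      clear hf0
      induction hf using Submodule.span_induction with
      | mem x hx => obtain ⟨φ, -, rfl⟩ := hx; exact H42.regRes_of_singular hq
      | zero => rfl
      | add u v _ _ hu hv => simp [hu, hv]
      | smul c u _ hu => simp [hu]
    funext q
    by_cases hq : p ∣ orderOf q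
    · exact hsing q hq
    · obtain ⟨g, hg, rfl⟩ := H40.exists_regular_lift hQ hq
      have := congrFun (LinearMap.mem_ker.1 hf0) g
      simpa [L, hg] using this
  have hdecq : ∀ φ ∈ bb, regRes p (inflate Q φ : CZ y → ℂ) = ∑ i, (S.D φ i : ℂ) • r i := by
    intro φ hφ
    rw [← hL, S.dec φ hφ, map_sum]
    simp only [map_smul, hr]
  choose! z hz using fun (φ : Cfsg.IrrCharacter (CZ y)) (hφ : φ ∈ b) =>
    exists_int_quot hM hind.1 hQ hQc hφ
  let D : Cfsg.IrrCharacter (CZ y) → Fin e → ℤ := fun φ i => ∑ η ∈ t0, z φ η * S.D η i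
  have hdec : ∀ φ ∈ b, regRes p (φ : CZ y → ℂ) = ∑ i, (D φ i : ℂ) • r i := by
    intro φ hφ
    rw [hz φ hφ, show Finset.univ.filter (· ∈ quotSet Q b) = t0 by
      ext η; simp [t0, bb, H42.mem_blockFinset]]
    rw [Finset.sum_congr rfl fun η hη => by rw [hdecq η (H42.mem_blockFinset.1 hη), Finset.smul_sum]]
    rw [Finset.sum_comm]
    refine Finset.sum_congr rfl fun i _ => ?_
    simp only [D, smul_smul, ← Finset.sum_smul, Int.cast_sum, Int.cast_mul]
  -- the rank
  have hrank : Cfsg.blockRank p b = e := by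
    have hspan : Submodule.span ℂ (Set.range r) = Submodule.span ℂ
        ((fun χ : Cfsg.IrrCharacter (CZ y) => Cfsg.pRegularPart p (χ : CZ y → ℂ)) '' b) := by
      refine le_antisymm (Submodule.span_le.2 ?_) (Submodule.span_le.2 ?_)
      · rintro _ ⟨i, rfl⟩
        have : S.r i ∈ Submodule.span ℂ
            ((fun χ : Cfsg.IrrCharacter (CZ y ⧸ Q) => regRes p (χ : CZ y ⧸ Q → ℂ)) '' bb) :=
          hSspan ▸ Submodule.subset_span ⟨i, rfl⟩
        have h2 := Submodule.mem_map_of_mem (f := L) this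
        rw [Submodule.map_span] at h2
        refine Submodule.span_mono ?_ h2
        rintro _ ⟨_, ⟨φ, hφ, rfl⟩, rfl⟩
        exact ⟨inflate Q φ, hφ, by rw [hL]; exact H42.pRegularPart_eq_regRes _ _⟩
      · rintro _ ⟨φ, hφ, rfl⟩
        show Cfsg.pRegularPart p (φ : CZ y → ℂ) ∈ _
        rw [H42.pRegularPart_eq_regRes, hdec φ hφ]
        exact Submodule.sum_mem _ fun i _ =>
          Submodule.smul_mem _ _ (Submodule.subset_span ⟨i, rfl⟩)
    rw [Cfsg.blockRank, ← hspan, finrank_span_eq_card hrind, Fintype.card_fin]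
  -- the form
  have hp0 : (p : ℂ) ^ d ≠ 0 := pow_ne_zero _ (Nat.cast_ne_zero.2 hp.out.ne_zero)
  let R : Matrix (Fin e) (Fin e) ℂ :=
    Matrix.of fun i j => (p : ℂ) ^ d * Cfsg.classInner (r i) (r j)
  let X : Matrix (Fin e) (Fin e) ℂ := Matrix.of fun i j => (orderOf y : ℂ) * (S.gram i j : ℂ)
  have hgram : ∀ i j, S.gram i j = ∑ η ∈ t0, S.D η i * S.D η j := fun i j => by
    rw [Shape.gram, Matrix.of_apply,
      finsum_mem_eq_finite_toFinset_sum _ (Set.toFinite bb)]
    exact Finset.sum_congr (by ext η; simp [t0, H42.mem_blockFinset]) fun _ _ => rfl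
  have hRX : R * X = (p : ℂ) ^ d • 1 := by
    have hexp : ∀ f ∈ Submodule.span ℂ (Set.range r), f = ∑ η ∈ t0, ((Nat.card Q : ℂ) *
        Cfsg.classInner f (regRes p (inflate Q η : CZ y → ℂ))) •
          regRes p (inflate Q η : CZ y → ℂ) := by
      intro f hf
      have hf' : f ∈ Submodule.span ℂ
          ((fun φ : Cfsg.IrrCharacter (CZ y ⧸ Q) => regRes p (inflate Q φ : CZ y → ℂ)) '' bb) := by
        refine Submodule.span_le.2 ?_ hf
        rintro _ ⟨i, rfl⟩
        have : S.r i ∈ Submodule.span ℂ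
            ((fun χ : Cfsg.IrrCharacter (CZ y ⧸ Q) => regRes p (χ : CZ y ⧸ Q → ℂ)) '' bb) :=
          hSspan ▸ Submodule.subset_span ⟨i, rfl⟩
        have h2 := Submodule.mem_map_of_mem (f := L) this
        rw [Submodule.map_span] at h2
        refine Submodule.span_mono ?_ h2
        rintro _ ⟨_, ⟨φ, hφ, rfl⟩, rfl⟩
        exact ⟨φ, hφ, (hL φ).symm⟩
      clear hf
      induction hf' using Submodule.span_induction with
      | mem x hx =>
        obtain ⟨φ, hφ, rfl⟩ := hx
        exact H20.BrauerFeit.regRes_inflate_eq_sum hM hind.1 hQ hsup hφ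
      | zero => simp [H26.classInner_zero_left]
      | add u v _ _ hu hv =>
        simp only [H26.classInner_add_left, mul_add, add_smul, Finset.sum_add_distrib, ← hu, ← hv]
      | smul c u _ hu =>
        conv_lhs => rw [hu, Finset.smul_sum]
        refine Finset.sum_congr rfl fun η _ => ?_
        rw [H26.classInner_smul_left, smul_smul]
        ring_nf
    ext i j
    have h1 := hexp (r i) (Submodule.subset_span ⟨i, rfl⟩)
    have h2 : r i = ∑ l, (((p : ℂ) ^ d)⁻¹ * (R * X) i l) • r l := by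
      conv_lhs => rw [h1]
      rw [Finset.sum_congr rfl fun η hη => by rw [hdecq η (H42.mem_blockFinset.1 hη),
        H26.classInner_sum_right, Finset.smul_sum], Finset.sum_comm]
      refine Finset.sum_congr rfl fun l _ => ?_
      simp only [smul_smul, ← Finset.sum_smul]
      congr 1
      simp only [Matrix.mul_apply, R, X, Matrix.of_apply, hgram, Int.cast_sum, Int.cast_mul,
        H26.classInner_smul_right, map_intCast, Finset.mul_sum, Finset.sum_mul, hQcard]
      rw [Finset.sum_comm]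
      refine Finset.sum_congr rfl fun k _ => Finset.sum_congr rfl fun η _ => ?_
      field_simp
    have h3 := Fintype.linearIndependent_iff.1 hrind
      (fun l => ((p : ℂ) ^ d)⁻¹ * (R * X) i l - if i = l then 1 else 0) (by
        simp only [sub_smul, Finset.sum_sub_distrib, ← h2, ite_smul, one_smul, zero_smul,
          Finset.sum_ite_eq, Finset.mem_univ, if_true, sub_self]) j
    simp only [sub_eq_zero, inv_mul_eq_iff_eq_mul₀ hp0] at h3
    rw [h3, Matrix.smul_apply, Matrix.one_apply, smul_eq_mul]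
  -- the coordinates of the characters
  let Uv : Cfsg.IrrCharacter G → ℕ → Fin e → ℂ := fun χ k i =>
    ∑ φ ∈ mem' b, (mult y χ φ : ℂ) * scal y φ ^ k * (D φ i : ℂ)
  let Vv : Cfsg.IrrCharacter G → ℕ → Fin e → ℂ := fun χ k i =>
    ∑ φ ∈ mem' b, (mult y χ φ : ℂ) * (scal y φ)⁻¹ ^ k * (D φ i : ℂ)
  have hconj : ∀ χ k i, conj (Uv χ k i) = Vv χ k i := fun χ k i => by
    simp only [Uv, Vv, map_sum, map_mul, map_natCast, map_pow, map_intCast, H56.Subsec.conj_scal]
  have hsreg : ∀ φ ∈ b, ∀ η ∈ b, (H32.scaledReg p b φ η : ℂ) =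
      ∑ i, ∑ j, (D φ i : ℂ) * R i j * (D η j : ℂ) := by
    intro φ hφ η hη
    rw [H20.BrauerFeit.cast_scaledReg_eq hM hind.1 hφ, hdec φ hφ, hdec η hη,
      H26.classInner_sum_left, Finset.mul_sum]
    refine Finset.sum_congr rfl fun i _ => ?_
    rw [H26.classInner_smul_left, H26.classInner_sum_right, Finset.mul_sum, Finset.mul_sum]
    refine Finset.sum_congr rfl fun j _ => ?_
    rw [H26.classInner_smul_right, map_intCast]
    simp only [R, Matrix.of_apply]
    ring
  have hcont : ∀ χ ψ k, cont p y b χ ψ k = ∑ i, ∑ j, Uv χ k i * R i j * Vv ψ k j := by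
    intro χ ψ k
    simp only [cont, Uv, Vv, Finset.sum_mul, Finset.mul_sum, Nat.cast_mul]
    rw [Finset.sum_congr rfl fun φ hφ => Finset.sum_congr rfl fun η hη => by
      rw [hsreg φ (mem_mem'.1 hφ) η (mem_mem'.1 hη)]]
    simp only [Finset.sum_mul, Finset.mul_sum]
    conv_lhs => enter [2, φ]; rw [Finset.sum_comm]; enter [2, i]; rw [Finset.sum_comm]
    rw [Finset.sum_comm]
    refine Finset.sum_congr rfl fun i _ => ?_
    rw [Finset.sum_comm]
    refine Finset.sum_congr rfl fun j _ => ?_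
    rw [Finset.sum_comm]
    refine Finset.sum_congr rfl fun η _ => Finset.sum_congr rfl fun φ _ => ?_
    ring
  let A : Matrix ↥(mem' B) (Fin e) ℂ := Matrix.of fun χ i => Uv χ.1 1 i
  have hAR : ∀ χ ψ : ↥(mem' B), (A * R * Aᴴ) χ ψ = cont p y b χ.1 ψ.1 1 := by
    intro χ ψ
    rw [hcont, Finset.sum_comm]
    simp only [Matrix.mul_apply, Matrix.conjTranspose_apply, A, Matrix.of_apply, Finset.sum_mul,
      ← hconj, starRingEnd_apply]
  have hfr : Aᴴ * A = X := by
    refine gram_eq_of_scaled_idem A R X hp0 ?_ ?_ hRX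
    · ext χ ψ
      rw [Matrix.mul_apply, Matrix.smul_apply, smul_eq_mul, hAR]
      simp only [hAR]
      rw [Finset.sum_coe_sort (mem' B) (fun θ => cont p y b χ.1 θ 1 * cont p y b θ ψ.1 1)]
      exact H56.Subsec.sum_cont_mul hM hy hind _ _
    · simp only [Matrix.trace, Matrix.diag, hAR]
      rw [Finset.sum_coe_sort (mem' B) (fun θ => cont p y b θ θ 1),
        H56.Subsec.sum_cont_self hM hy hind, hrank]
  obtain ⟨j0, hj0⟩ := id hy
  set N := p ^ (j0 + 1) with hNdef
  have hN : y ^ N = 1 := by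
    simp only [N]; rw [pow_succ, pow_mul, ← hj0, pow_orderOf_eq_one, one_pow]
  have hN0 : N ≠ 0 := (pow_pos hp.out.pos _).ne'
  set U := H56.Twist.units N
  have hUtw : ∀ χ i, H56.Twist.IsTwist N (Uv χ 1 i) (fun k => Uv χ k i) := fun χ i σ k hσ => by
    simp only [Uv, map_sum, map_mul, map_natCast, map_pow, map_intCast, pow_one,
      hσ _ (H56.Subsec.scal_pow y hN _)]
  have hVtw : ∀ χ i, H56.Twist.IsTwist N (Vv χ 1 i) (fun k => Vv χ k i) := fun χ i σ k hσ => by
    have h' : ∀ φ, σ (scal y φ)⁻¹ = (scal y φ)⁻¹ ^ k := fun φ =>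
      hσ _ (by rw [inv_pow, H56.Subsec.scal_pow y hN, inv_one])
    simp only [Vv, map_sum, map_mul, map_natCast, map_intCast, pow_one, h']
  have hgramk : ∀ k ∈ U, ∀ i j,
      ∑ χ ∈ mem' B, Vv χ k i * Uv χ k j = (((orderOf y : ℤ) * S.gram i j : ℤ) : ℂ) := by
    intro k hk i j
    obtain ⟨σ, hσ⟩ := H45.exists_ringAut_pow hN0 (Finset.mem_filter.1 hk).2
    have h1 : ∑ χ ∈ mem' B, Vv χ 1 i * Uv χ 1 j = (((orderOf y : ℤ) * S.gram i j : ℤ) : ℂ) := by
      have h := congrFun (congrFun hfr i) j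
      simp only [Matrix.mul_apply, Matrix.conjTranspose_apply, A, Matrix.of_apply, X] at h
      rw [← Finset.sum_coe_sort (mem' B)]
      push_cast
      rw [← h]
      simp only [← hconj, starRingEnd_apply]
    have h2 := congrArg σ h1
    simp only [map_sum, map_mul, map_intCast, hUtw _ j σ k hσ, hVtw _ i σ k hσ] at h2
    exact h2
  -- the edges
  set T : ℤ := ∑ t, ∑ i, ∑ j, a t i * S.gram i j * a t j with hT
  let Z : Cfsg.IrrCharacter G → Fin n → ℕ → ℂ := fun χ t k => ∑ i, (a t i : ℂ) * Uv χ k i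
  have htot : ∀ k ∈ U, ∑ χ ∈ mem' B, ∑ t, ‖Z χ t k‖ ^ 2 = (((orderOf y : ℤ) * T : ℤ) : ℝ) := by
    intro k hk
    apply Complex.ofReal_injective
    rw [Complex.ofReal_sum, hT, Finset.mul_sum, Complex.ofReal_intCast, Int.cast_sum,
      Finset.sum_congr rfl fun χ _ => Complex.ofReal_sum _ _, Finset.sum_comm]
    refine Finset.sum_congr rfl fun t _ => ?_
    have hnorm : ∀ χ, ((‖Z χ t k‖ ^ 2 : ℝ) : ℂ) =
        ∑ i, ∑ j, (a t i : ℂ) * (a t j : ℂ) * (Vv χ k i * Uv χ k j) := fun χ => by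
      rw [Complex.ofReal_pow, ← Complex.conj_mul']
      simp only [Z, map_sum, map_mul, map_intCast, hconj]
      rw [Finset.sum_mul_sum]
      exact Finset.sum_congr rfl fun i _ => Finset.sum_congr rfl fun j _ => by ring
    simp only [hnorm, Finset.mul_sum, Int.cast_sum]
    rw [Finset.sum_comm]
    refine Finset.sum_congr rfl fun i _ => ?_
    rw [Finset.sum_comm]
    refine Finset.sum_congr rfl fun j _ => ?_
    rw [show (((orderOf y : ℤ) * (a t i * S.gram i j * a t j) : ℤ) : ℂ) =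
      (a t i : ℂ) * (a t j : ℂ) * (((orderOf y : ℤ) * S.gram i j : ℤ) : ℂ) by push_cast; ring,
      ← hgramk k hk i j, Finset.mul_sum]
  obtain ⟨χ₀, hχ₀, h00⟩ := H41.exists_height_zero (p := p) (H41.IsPBlock.nonempty hind.2.1)
  have hlow : ∀ χ ∈ mem' B, 2 * (U.card : ℝ) ≤ ∑ k ∈ U, ∑ t, ‖Z χ t k‖ ^ 2 := by
    intro χ hχ
    have hne : ∃ t, Z χ t 1 ≠ 0 := by
      by_contra! h
      have hv := hinj (Uv χ 1) h
      refine (H56.Subsec.cont_self_ne_zero hM hy hind hbd hχ₀ h00 (mem_mem'.1 hχ)).2 ?_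
      rw [hcont]
      simp [hv]
    obtain ⟨t1, ht1⟩ := hne
    have hzero : ∑ t, Z χ t 1 = 0 := by
      simp only [Z]
      rw [Finset.sum_comm]
      refine Finset.sum_eq_zero fun i _ => ?_
      rw [← Finset.sum_mul, ← Int.cast_sum, hsum, Int.cast_zero, zero_mul]
    obtain ⟨t2, ht2, ht21⟩ : ∃ t2, Z χ t2 1 ≠ 0 ∧ t2 ≠ t1 := by
      by_contra! h
      rw [Finset.sum_eq_single t1 (fun t _ ht => of_not_not fun h0 => ht (h t h0))
        (fun h' => absurd (Finset.mem_univ _) h')] at hzero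
      exact ht1 hzero
    have hb1 : ∀ t, Z χ t 1 ≠ 0 → (U.card : ℝ) ≤ ∑ k ∈ U, ‖Z χ t k‖ ^ 2 := by
      intro t ht
      refine H56.Twist.IsTwist.card_le_sum_norm_pow (z := Z χ t 1) (fun σ k hσ => ?_) hN0 ?_ ht 2
      · simp only [Z, map_sum, map_mul, map_intCast, hUtw χ _ σ k hσ]
      · refine IsIntegral.sum _ fun i _ => IsIntegral.mul
          (isIntegral_algebraMap (R := ℤ) (x := a t i)) (IsIntegral.sum _ fun φ _ => ?_)
        rw [pow_one]
        exact ((isIntegral_algebraMap (R := ℤ) (x := ((mult y χ φ : ℕ) : ℤ))).mul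
          (H56.Subsec.scal_isIntegral y φ)).mul (isIntegral_algebraMap (R := ℤ) (x := D φ i))
    rw [Finset.sum_comm, two_mul]
    calc (U.card : ℝ) + U.card ≤ ∑ k ∈ U, ‖Z χ t1 k‖ ^ 2 + ∑ k ∈ U, ‖Z χ t2 k‖ ^ 2 :=
          add_le_add (hb1 t1 ht1) (hb1 t2 ht2)
      _ = ∑ t ∈ ({t1, t2} : Finset (Fin n)), ∑ k ∈ U, ‖Z χ t k‖ ^ 2 := by
          rw [Finset.sum_pair ht21.symm]
      _ ≤ _ := Finset.sum_le_sum_of_subset_of_nonneg (Finset.subset_univ _) fun _ _ _ =>
          Finset.sum_nonneg fun _ _ => sq_nonneg _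
  have hU : (0 : ℝ) < (U.card : ℝ) := Nat.cast_pos.2 (Finset.card_pos.2 ⟨1,
    Finset.mem_filter.2 ⟨Finset.mem_range.2 (Nat.one_lt_pow (Nat.succ_ne_zero j0) hp.out.one_lt),
      Nat.coprime_one_left _⟩⟩)
  have h := Finset.sum_le_sum hlow
  rw [Finset.sum_const, nsmul_eq_mul, Finset.sum_comm, Finset.sum_congr rfl htot, Finset.sum_const,
    nsmul_eq_mul] at h
  have hcard : (mem' B).card = Nat.card B := by
    rw [Nat.card_eq_fintype_card]
    exact (Fintype.card_of_finset' (mem' B) fun χ => mem_mem').symm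
  rw [hcard, show (Nat.card B : ℝ) * (2 * (U.card : ℝ)) =
    (U.card : ℝ) * ((2 * (Nat.card B : ℤ) : ℤ) : ℝ) by push_cast; ring] at h
  exact_mod_cast le_of_mul_le_mul_left h hU

end Cfsg.Agent.H31.RankTwo
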