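import Cfsg.Agent.H31.RankTwo.Bound

/-!
# Shapes of blocks with cyclic defect group, and the edge bound
-/

set_option autoImplicit false
set_option linter.unusedSectionVars false

open scoped ComplexConjugate

namespace Cfsg.Agent.H31.RankTwo

open Cfsg
open Cfsg.Agent.H42 (regRes)
open scoped Classical

universe u

/-- The data used of blocks with cyclic defect group. -/
def CyclicInfo (p : ℕ) (M : Ideal Cfsg.AlgInt) : Prop :=
  ∀ (H : Type u) [Group H] [Finite H] (bb : Set (Cfsg.IrrCharacter H)) (D : Subgroup H),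
    Cfsg.IsPBlock M bb → Cfsg.IsDefectGroup p M bb D → IsCyclic D → D ≠ ⊥ →
      ∃ (e m : ℕ) (S : Shape p bb e), 0 < e ∧ e + m ≤ Nat.card D ∧
        ∀ i j, S.gram i j = (if i = j then 1 else 0) + (m : ℤ)

/-- A shape from signed rows and rows equal to their negated sum. -/
theorem exists_shape_of_rows {p : ℕ} {H : Type*} [Group H] [Finite H]
    {bb X Y : Set (Cfsg.IrrCharacter H)} (hXY : bb = X ∪ Y) (hdisj : Disjoint X Y) {e m : ℕ}
    (hX : Nat.card X = e) (hY : Nat.card Y = m) (hrank : Cfsg.blockRank p bb = e)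
    (δ : Cfsg.IrrCharacter H → ℤ) (δ₀ : ℤ) (hδ : ∀ χ ∈ X, δ χ = 1 ∨ δ χ = -1)
    (hδ₀ : δ₀ = 1 ∨ δ₀ = -1)
    (hrel : ∀ ψ ∈ Y, ∀ g : H, ¬ p ∣ orderOf g →
      (δ₀ : ℂ) * (ψ : H → ℂ) g + ∑ᶠ χ ∈ X, (δ χ : ℂ) * (χ : H → ℂ) g = 0) :
    ∃ S : Shape p bb e, ∀ i j, S.gram i j = (if i = j then 1 else 0) + (m : ℤ) := by
  have := Fintype.ofFinite H
  have hcardX : Fintype.card X = e := by rwa [← Nat.card_eq_fintype_card]
  let ι : Fin e ≃ X := (Fintype.equivFinOfCardEq hcardX).symm
  let D : Cfsg.IrrCharacter H → Fin e → ℤ := fun φ i =>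
    if φ ∈ X then (if φ = ((ι i : X) : Cfsg.IrrCharacter H) then δ φ else 0) else -δ₀
  let r : Fin e → H → ℂ := fun i =>
    (δ (ι i : Cfsg.IrrCharacter H) : ℂ) • regRes p ((ι i : Cfsg.IrrCharacter H) : H → ℂ)
  have hd2 : ∀ χ ∈ X, δ χ * δ χ = 1 := fun χ hχ => by rcases hδ χ hχ with h | h <;> simp [h]
  have hd0 : δ₀ * δ₀ = 1 := by rcases hδ₀ with h | h <;> simp [h]
  have hdec : ∀ φ ∈ bb, regRes p (φ : H → ℂ) = ∑ i, (D φ i : ℂ) • r i := by
    intro φ hφ
    by_cases hX' : φ ∈ X
    · obtain ⟨i, hi⟩ := ι.surjective ⟨φ, hX'⟩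
      rw [Finset.sum_eq_single i]
      · simp only [D, r, if_pos hX', hi, if_true, smul_smul, ← Int.cast_mul, hd2 φ hX',
          Int.cast_one, one_smul]
      · intro j _ hj
        simp only [D, if_pos hX']
        rw [if_neg fun h => hj (ι.injective (hi ▸ Subtype.ext h.symm)), Int.cast_zero, zero_smul]
      · simp
    · have hY' : φ ∈ Y := by
        rw [hXY] at hφ
        exact hφ.resolve_left hX'
      funext g
      simp only [D, r, if_neg hX', Finset.sum_apply, Pi.smul_apply, smul_eq_mul]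
      by_cases hg : p ∣ orderOf g
      · simp [H42.regRes_of_singular hg]
      · simp only [H42.regRes_of_regular hg]
        have h := hrel φ hY' g hg
        rw [finsum_mem_eq_finite_toFinset_sum _ (Set.toFinite X),
          ← Finset.sum_coe_sort, ← (ι.trans ((Set.toFinite X).subtypeEquivToFinset)).sum_comp] at h
        simp only [← Finset.mul_sum]
        have hd0' : (δ₀ : ℂ) * δ₀ = 1 := by exact_mod_cast hd0
        have h' : ∑ i, (δ (ι i : Cfsg.IrrCharacter H) : ℂ) * ((ι i : Cfsg.IrrCharacter H) : H → ℂ) g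
            = -((δ₀ : ℂ) * (φ : H → ℂ) g) := by
          refine eq_neg_of_add_eq_zero_right (Eq.trans ?_ h)
          simp
        rw [h']
        push_cast
        linear_combination -(φ : H → ℂ) g * hd0'
  refine ⟨⟨r, D, hdec, hrank⟩, fun i j => ?_⟩
  show (∑ᶠ φ ∈ bb, D φ i * D φ j) = _
  rw [hXY, finsum_mem_union hdisj (Set.toFinite _) (Set.toFinite _)]
  congr 1
  · rw [finsum_mem_eq_sum_of_inter_support_eq (s := X) _
      (t := (Set.toFinite X).toFinset) (by simp)]
    rw [Finset.sum_eq_single ((ι i : X) : Cfsg.IrrCharacter H)]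
    · simp only [D, if_pos (ι i).2, if_true]
      by_cases hij : i = j
      · subst hij; simp [hd2 _ (ι i).2]
      · rw [if_neg fun h => hij (ι.injective (Subtype.ext h)), mul_zero, if_neg hij]
    · intro φ hφ hne
      simp [D, (Set.toFinite X).mem_toFinset.1 hφ, hne]
    · simp
  · rw [finsum_mem_eq_finite_toFinset_sum _ (Set.toFinite Y), Finset.sum_congr rfl fun φ hφ => show
      D φ i * D φ j = 1 by
        have : φ ∉ X := fun h => hdisj.le_bot ⟨h, (Set.toFinite Y).mem_toFinset.1 hφ⟩
        simp [D, this, hd0], Finset.sum_const, nsmul_eq_mul, mul_one,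
      ← Nat.card_eq_card_finite_toFinset, hY]

/-- The edges of a path through the coordinates, closed at both ends. -/
def edge (e : ℕ) (t : Fin (e + 1)) (i : Fin e) : ℤ :=
  (if t = i.castSucc then 1 else 0) - (if t = i.succ then 1 else 0)

theorem sum_edge (e : ℕ) (i : Fin e) : ∑ t, edge e t i = 0 := by
  simp [edge, Finset.sum_sub_distrib]

theorem eq_zero_of_edge (e : ℕ) (v : Fin e → ℂ)
    (h : ∀ t, ∑ i, (edge e t i : ℂ) * v i = 0) : v = 0 := by
  have key : ∀ t : Fin e, (∑ i, (edge e t.castSucc i : ℂ) * v i) =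
      v t - ∑ i, if i.succ = t.castSucc then v i else 0 := by
    intro t
    simp only [edge, Int.cast_sub, Int.cast_ite, Int.cast_one, Int.cast_zero, sub_mul, ite_mul,
      one_mul, zero_mul, Finset.sum_sub_distrib, Fin.castSucc_inj, Finset.sum_ite_eq,
      Finset.mem_univ, if_true]
    congr 1
    exact Finset.sum_congr rfl fun i _ => if_congr eq_comm rfl rfl
  funext t
  obtain ⟨n, hn⟩ := t
  induction n with
  | zero =>
    have h1 := key ⟨0, hn⟩
    rw [h, Finset.sum_eq_zero (fun i _ => if_neg (by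
      intro hi; have := congrArg Fin.val hi; simp at this)), sub_zero] at h1
    exact h1.symm
  | succ n ih =>
    have h1 := key ⟨n + 1, hn⟩
    rw [h, Finset.sum_eq_single (⟨n, by omega⟩ : Fin e) (fun i _ hi => if_neg (by
        intro hh; apply hi; have := congrArg Fin.val hh; ext; simp at this ⊢; omega)) (by simp),
      if_pos (by ext; simp), ih (by omega)] at h1
    simpa using h1.symm

/-- The value of the edges on `1 + m J`. -/
theorem edge_form (e : ℕ) (he : 0 < e) (m : ℤ) :
    ∑ t, ∑ i, ∑ j, edge e t i * ((if i = j then 1 else 0) + m) * edge e t j =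
      2 * ((e : ℤ) + m) := by
  have hrow : ∀ t, ∑ i, ∑ j, edge e t i * ((if i = j then 1 else 0) + m) * edge e t j =
      (∑ i, edge e t i * edge e t i) + m * ((∑ i, edge e t i) * (∑ i, edge e t i)) := by
    intro t
    simp only [mul_add, add_mul, mul_ite, mul_one, mul_zero, ite_mul, zero_mul,
      Finset.sum_add_distrib, Finset.sum_ite_eq, Finset.mem_univ, if_true]
    congr 1
    rw [Finset.sum_mul_sum, Finset.mul_sum]
    exact Finset.sum_congr rfl fun i _ => by
      rw [Finset.mul_sum]; exact Finset.sum_congr rfl fun j _ => by ring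
  simp only [hrow, Finset.sum_add_distrib, ← Finset.mul_sum]
  have hsq : ∀ i : Fin e, ∑ t, edge e t i * edge e t i = 2 := by
    intro i
    have hne : i.castSucc ≠ i.succ := fun h => by
      have := congrArg Fin.val h; simp at this
    have : ∀ t, edge e t i * edge e t i =
        (if t = i.castSucc then 1 else 0) + (if t = i.succ then 1 else 0) := fun t => by
      unfold edge
      by_cases h1 : t = i.castSucc
      · subst h1; simp [hne]
      · by_cases h2 : t = i.succ <;> simp [h1, h2, hne, hne.symm]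
    simp [this, Finset.sum_add_distrib]
  rw [Finset.sum_comm, Finset.sum_congr rfl fun i _ => hsq i, Finset.sum_const, Finset.card_univ,
    Fintype.card_fin]
  obtain ⟨e, rfl⟩ : ∃ e', e = e' + 1 := ⟨e - 1, by omega⟩
  have hend : ∀ t : Fin (e + 1 + 1), ∑ i, edge (e + 1) t i =
      (if t = 0 then 1 else 0) - (if t = Fin.last (e + 1) then 1 else 0) := by
    intro t
    simp only [edge, Finset.sum_sub_distrib]
    have h1 : (∑ i : Fin (e + 1), if t = i.castSucc then (1 : ℤ) else 0) =
        1 - if t = Fin.last (e + 1) then 1 else 0 := by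
      rcases Fin.eq_castSucc_or_eq_last t with ⟨i, rfl⟩ | rfl
      · simp [Fin.castSucc_inj, (Fin.castSucc_lt_last i).ne]
      · simp [fun i : Fin (e + 1) => (Fin.castSucc_lt_last i).ne']
    have h2 : (∑ i : Fin (e + 1), if t = i.succ then (1 : ℤ) else 0) =
        1 - if t = 0 then 1 else 0 := by
      rcases Fin.eq_zero_or_eq_succ t with rfl | ⟨i, rfl⟩
      · simp [fun i : Fin (e + 1) => (Fin.succ_ne_zero i).symm]
      · simp [Fin.succ_ne_zero]
    rw [h1, h2]
    ring
  have hsum2 : ∑ t, (∑ i, edge (e + 1) t i) * (∑ i, edge (e + 1) t i) = 2 := by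
    have h0l : (0 : Fin (e + 1 + 1)) ≠ Fin.last (e + 1) := fun h => by
      have := congrArg Fin.val h; simp at this
    have : ∀ t, (∑ i, edge (e + 1) t i) * (∑ i, edge (e + 1) t i) =
        (if t = 0 then 1 else 0) + (if t = Fin.last (e + 1) then 1 else 0) := fun t => by
      rw [hend]
      by_cases h1 : t = 0
      · subst h1; simp [h0l]
      · by_cases h2 : t = Fin.last (e + 1) <;> simp [h1, h2, h0l.symm]
    simp [this, Finset.sum_add_distrib]
  rw [hsum2]
  push_cast
  ring

end Cfsg.Agent.H31.RankTwo
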