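import Cfsg.Agent.H31.RankTwo.Cyclic
import Cfsg.Agent.H31.RankTwo.Setup
import Cfsg.Agent.S4695
import Cfsg.Agent.S4696

/-!
# The data of blocks with cyclic defect group
-/

set_option autoImplicit false

namespace Cfsg.Agent.H31.RankTwo

open Cfsg

universe u

/-- The data hold. -/
theorem cyclicInfo {p : ℕ} [hp : Fact p.Prime] {M : Ideal Cfsg.AlgInt}
    (hM : Cfsg.IsPModular p M) : CyclicInfo.{u} p M := by
  intro H _ _ bb D hbb hD hcyc hD1
  have := hM.2.1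
  classical
  have := Fintype.ofFinite H
  have hab : ∀ a ∈ D, ∀ c ∈ D, a * c = c * a := fun a ha c hc => by
    letI := hcyc.commGroup
    exact congrArg Subtype.val (mul_comm (⟨a, ha⟩ : D) ⟨c, hc⟩)
  obtain ⟨a, ha⟩ := IsPGroup.iff_card.1 (H40.isPGroup_of_isDefectGroup hD)
  have ha1 : 1 ≤ a := by
    by_contra h
    refine hD1 (Subgroup.card_eq_one.1 ?_)
    rw [ha, show a = 0 by omega, pow_zero]
  obtain ⟨c, T, hind, hT⟩ := exists_local_data hM hbb hD hab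
  set e := (Subgroup.centralizer (D : Set H)).relIndex T with he
  have hrank := Cfsg.Agent.S4695.result p M hM D hcyc a ha1 ha bb hbb hD c hind T hT e he.symm
  obtain ⟨hdvd, -, X, Y, hXY, hdisj, hX, hY, -, δ, δ₀, hδ, hδ₀, hrel, -, -⟩ :=
    Cfsg.Agent.S4696.result p M hM D hcyc a ha1 ha bb hbb hD c hind T hT e he.symm
  obtain ⟨S, hS⟩ := exists_shape_of_rows hXY hdisj hX hY hrank δ δ₀ hδ hδ₀ hrel
  have hp2 := hp.out.two_le
  have he0 : 0 < e := Nat.pos_of_dvd_of_pos hdvd (by omega)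
  refine ⟨e, (p ^ a - 1) / e, S, he0, ?_, hS⟩
  rw [ha]
  have hpa : p ≤ p ^ a := Nat.le_self_pow (by omega) p
  have hele : e ≤ p ^ a - 1 := (Nat.le_of_dvd (by omega) hdvd).trans (by omega)
  have hm1 : 1 ≤ (p ^ a - 1) / e := (Nat.one_le_div_iff he0).2 hele
  have hm2 := Nat.mul_div_le (p ^ a - 1) e
  nlinarith [mul_nonneg (show (0 : ℤ) ≤ (e : ℤ) - 1 by omega)
    (show (0 : ℤ) ≤ (((p ^ a - 1) / e : ℕ) : ℤ) - 1 by omega), Nat.sub_add_cancel (show 1 ≤ p ^ a by omega)]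

end Cfsg.Agent.H31.RankTwo
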