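import Cfsg.Agent.H31.RankTwo.Cyclic
import Cfsg.Agent.H41.CentralSubsections
import Cfsg.Agent.H40.NilpotentBlocks
import Cfsg.Agent.S4733

/-!
# Abelian defect groups with two or three generators
-/

set_option autoImplicit false
set_option linter.unusedSectionVars false

open scoped ComplexConjugate

namespace Cfsg.Agent.H31.RankTwo

open Cfsg
open Cfsg.Agent.H56.Subsec (CZ yC mem' mem_mem' cont)
open Cfsg.Agent.H40 (quotSet)
open scoped Classical

universe u

variable {p : ℕ} [hp : Fact p.Prime] {M : Ideal Cfsg.AlgInt}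

/-- A block is at most `p ^ d` times the rank of a major block. -/
theorem card_le_pow_mul_rank {G : Type u} [Group G] [Fintype G] (hM : Cfsg.IsPModular p M) {y : G}
    {b : Set (Cfsg.IrrCharacter (CZ y))} {B : Set (Cfsg.IrrCharacter G)}
    (hy : ∃ k : ℕ, orderOf y = p ^ k) (hind : Cfsg.IsInducedBlock M (CZ y) b B)
    (hbd : Cfsg.blockDefect p b = Cfsg.blockDefect p B) :
    Nat.card B ≤ p ^ Cfsg.blockDefect p b * Cfsg.blockRank p b := by
  have := hM.2.1
  obtain ⟨j, hj⟩ := id hy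
  set N := p ^ (j + 1)
  have hN : y ^ N = 1 := by
    simp only [N]; rw [pow_succ, pow_mul, ← hj, pow_orderOf_eq_one, one_pow]
  have hN0 : N ≠ 0 := (pow_pos hp.out.pos _).ne'
  obtain ⟨χ₀, hχ₀, h00⟩ := H41.exists_height_zero (p := p) (H41.IsPBlock.nonempty hind.2.1)
  have hcard : (mem' B).card = Nat.card B := by
    rw [Nat.card_eq_fintype_card]
    exact (Fintype.card_of_finset' (mem' B) fun χ => mem_mem').symm
  rw [← hcard]
  have h := H56.Subsec.card_mul_le hM hy hind hN0 hN 1 fun χ hχ => by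
    have h := (H56.Subsec.isTwist_cont (p := p) (b := b) hN χ χ).card_le_sum_norm_pow hN0
      (H56.Subsec.isIntegral_cont χ χ 1)
      (H56.Subsec.cont_self_ne_zero hM hy hind hbd hχ₀ h00 (mem_mem'.1 hχ)).2 1
    rw [Nat.cast_one, mul_one]
    refine h.trans (le_of_eq (Finset.sum_congr rfl fun k hk => ?_))
    have hr : cont p y b χ χ k = (((cont p y b χ χ k).re : ℝ) : ℂ) :=
      (Complex.conj_eq_iff_re.1 (H56.Subsec.conj_cont χ χ k)).symm
    rw [pow_one]
    conv_lhs => rw [hr]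
    rw [Complex.norm_real, Real.norm_eq_abs,
      abs_of_nonneg (H56.Subsec.re_cont_self_nonneg hM hy hind hN0 hN χ hk)]
  rwa [mul_one] at h

/-- A major subsection at a generator, with the defect group of the block below. -/
theorem exists_major_quot {G : Type u} [Group G] [Fintype G] (hM : Cfsg.IsPModular p M)
    {B : Set (Cfsg.IrrCharacter G)} (hB : Cfsg.IsPBlock M B) {D : Subgroup G}
    (hD : Cfsg.IsDefectGroup p M B D) (hab : ∀ a ∈ D, ∀ c ∈ D, a * c = c * a) {y : G}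
    (hy : y ∈ D) [(Subgroup.zpowers (yC y)).Normal] :
    ∃ (b : Set (Cfsg.IrrCharacter (CZ y)))
      (Db : Subgroup (CZ y ⧸ Subgroup.zpowers (yC y))),
      Cfsg.IsInducedBlock M (CZ y) b B ∧ Cfsg.blockDefect p b = Cfsg.blockDefect p B ∧
      Cfsg.IsPBlock M (quotSet (Subgroup.zpowers (yC y)) b) ∧
      Cfsg.IsDefectGroup p M (quotSet (Subgroup.zpowers (yC y)) b) Db ∧
      ∃ h : D ≤ CZ y, Db = (D.subgroupOf (CZ y)).map
        (QuotientGroup.mk' (Subgroup.zpowers (yC y))) := by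
  have := hM.2.1
  have := H41.IsPModular.charP hM
  obtain ⟨e, hm⟩ := H40.NilpotentBlocks.exists_isMaxEl_of_defect hM hB hD
  have hyC : y ∈ Subgroup.centralizer (D : Set G) :=
    Subgroup.mem_centralizer_iff.2 fun c hc => hab c hc y hy
  obtain ⟨b, hind, hbd, hle⟩ := H41.Central.exists_major hM hB hm hy hyC
  have hDC := H41.Central.le_centralizer_zpowers (P := D) hyC
  obtain ⟨-, hmax⟩ := H41.Central.isMaxEl_local hM hB hm hle hDC
  have hbdef : Cfsg.IsDefectGroup p M b (D.subgroupOf (CZ y)) :=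
    (H22.isDefectGroup_subgroupOf_iff hM hind.1 hmax.pair.le).2
      (hmax.isDefEl (H22.split M G) (H22.isBlockEl_el hind.1))
  have hQ : IsPGroup p (Subgroup.zpowers (yC y)) := by
    obtain ⟨k, hk⟩ := IsPGroup.iff_orderOf.1 (H40.isPGroup_of_isDefectGroup hD) ⟨y, hy⟩
    refine IsPGroup.of_card (n := k) ?_
    rw [Nat.card_zpowers, ← Subgroup.orderOf_coe]
    rwa [← Subgroup.orderOf_coe] at hk
  have hsup := H20.BrauerFeit.sup_centralizer_yC y
  have hqb := H20.BrauerFeit.isPBlock_quotSet hM hind.1 hQ hsup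
  obtain ⟨Bbar, hBbar, hsub, hdef⟩ := H40.exists_quotient_block (Subgroup.zpowers (yC y)) hM hQ hind.1
  have hEq : Bbar = quotSet (Subgroup.zpowers (yC y)) b := by
    obtain ⟨φ, hφ⟩ := H41.IsPBlock.nonempty hBbar
    exact H41.block_eq_of_mem_of_mem hBbar hqb hφ (hsub hφ)
  subst hEq
  exact ⟨b, _, hind, hbd, hqb, (hdef _).2 ⟨_, hbdef, rfl⟩, hDC, rfl⟩

/-- The order of the defect group splits. -/
theorem card_zpowers_mul {G : Type u} [Group G] [Fintype G] {D : Subgroup G} {y : G} (hy : y ∈ D)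
    (hDC : D ≤ CZ y) [(Subgroup.zpowers (yC y)).Normal] :
    orderOf y * Nat.card ((D.subgroupOf (CZ y)).map (QuotientGroup.mk' (Subgroup.zpowers (yC y)))) =
      Nat.card D := by
  have hle : Subgroup.zpowers (yC y) ≤ D.subgroupOf (CZ y) :=
    Subgroup.zpowers_le.2 (Subgroup.mem_subgroupOf.2 hy)
  set f := ((QuotientGroup.mk' (Subgroup.zpowers (yC y))).comp (D.subgroupOf (CZ y)).subtype) with hf
  have h := f.ker.card_mul_index
  rw [Subgroup.index_ker, show f.range = (D.subgroupOf (CZ y)).map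
      (QuotientGroup.mk' (Subgroup.zpowers (yC y))) by rw [hf, MonoidHom.range_comp,
      Subgroup.range_subtype],
    show f.ker = (Subgroup.zpowers (yC y)).subgroupOf (D.subgroupOf (CZ y)) by
      rw [hf, ← MonoidHom.comap_ker, QuotientGroup.ker_mk']; rfl,
    Nat.card_congr (Subgroup.subgroupOfEquivOfLe hle).toEquiv,
    Nat.card_congr (Subgroup.subgroupOfEquivOfLe hDC).toEquiv, Nat.card_zpowers,
    ← Subgroup.orderOf_coe] at h
  exact h

/-- Two generators. -/
theorem card_le_of_two_gen (hM : Cfsg.IsPModular p M) (hcyc : CyclicInfo.{u} p M) {G : Type u}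
    [Group G] [Finite G] {B : Set (Cfsg.IrrCharacter G)} (hB : Cfsg.IsPBlock M B) {D : Subgroup G}
    (hD : Cfsg.IsDefectGroup p M B D) (hab : ∀ a ∈ D, ∀ c ∈ D, a * c = c * a) {y x : G}
    (hy : y ∈ D) (hgen : D ≤ Subgroup.zpowers y ⊔ Subgroup.zpowers x) (hx : x ∈ D) :
    Nat.card B ≤ Nat.card D := by
  have := Fintype.ofFinite G
  have := hM.2.1
  have := H20.BrauerFeit.zpowers_yC_normal y
  obtain ⟨b, Db, hind, hbd, hqb, hDb, hDC, hDbeq⟩ := exists_major_quot hM hB hD hab hy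
  have hyp : ∃ k : ℕ, orderOf y = p ^ k := by
    obtain ⟨k, hk⟩ := IsPGroup.iff_orderOf.1 (H40.isPGroup_of_isDefectGroup hD) ⟨y, hy⟩
    exact ⟨k, by rwa [← Subgroup.orderOf_coe] at hk⟩
  have hDbcyc : IsCyclic Db := by
    suffices hle : Db ≤ Subgroup.zpowers
        (QuotientGroup.mk' (Subgroup.zpowers (yC y)) ⟨x, hDC hx⟩) from
      isCyclic_of_injective (Subgroup.inclusion hle) (Subgroup.inclusion_injective hle)
    subst hDbeq
    rintro _ ⟨w, hw, rfl⟩
    have h : (w : G) ∈ Subgroup.zpowers y ⊔ Subgroup.zpowers x := hgen hw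
    have hw' : w ∈ Subgroup.zpowers (yC y) ⊔ Subgroup.zpowers (⟨x, hDC hx⟩ : CZ y) := by
      refine (Subgroup.mem_map_iff_mem (f := (CZ y).subtype) Subtype.val_injective).1 ?_
      rw [Subgroup.map_sup, MonoidHom.map_zpowers, MonoidHom.map_zpowers]
      exact h
    rw [← MonoidHom.map_zpowers]
    have := Subgroup.mem_map_of_mem (QuotientGroup.mk' (Subgroup.zpowers (yC y))) hw'
    rwa [Subgroup.map_sup, (Subgroup.map_eq_bot_iff _).2 (by rw [QuotientGroup.ker_mk']),
      bot_sup_eq] at this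
  rw [← card_zpowers_mul hy hDC, ← hDbeq]
  obtain ⟨e, m, S, he, hem, hgram⟩ : ∃ (e m : ℕ)
      (S : Shape p (quotSet (Subgroup.zpowers (yC y)) b) e), 0 < e ∧ e + m ≤ Nat.card Db ∧
        ∀ i j, S.gram i j = (if i = j then 1 else 0) + (m : ℤ) := by
    by_cases hbot : Db = ⊥
    · have hd0 : Cfsg.blockDefect p (quotSet (Subgroup.zpowers (yC y)) b) = 0 := by
        have h := H40.card_defectGroup hM hqb hDb
        rw [hbot, Subgroup.card_bot] at h
        exact (Nat.pow_eq_one.1 h.symm).resolve_left hp.out.one_lt.ne'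
      obtain ⟨hc1, hr1⟩ := (Cfsg.Agent.S4733.result p M hM _ hqb).2.1.1 hd0
      obtain ⟨S, hS⟩ := exists_shape_of_rows (p := p)
        (X := quotSet (Subgroup.zpowers (yC y)) b) (Y := ∅) (m := 0) (by simp) (by simp) hc1
        (by simp) hr1 (fun _ => 1) 1 (fun _ _ => Or.inl rfl) (Or.inl rfl) (fun ψ hψ => hψ.elim)
      exact ⟨1, 0, S, one_pos, by rw [hbot, Subgroup.card_bot], hS⟩
    · exact hcyc _ _ Db hqb hDb hDbcyc hbot
  have h := two_mul_card_le hM hyp hind hbd S (edge e) (sum_edge e) (eq_zero_of_edge e)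
  simp only [hgram] at h
  rw [edge_form e he] at h
  have h2 : (orderOf y : ℤ) * ((e : ℤ) + m) ≤ (orderOf y : ℤ) * (Nat.card Db : ℤ) :=
    mul_le_mul_of_nonneg_left (by exact_mod_cast hem) (Int.natCast_nonneg _)
  have h3 : (Nat.card B : ℤ) ≤ (orderOf y : ℤ) * (Nat.card Db : ℤ) := by linarith
  exact_mod_cast h3

/-- Three generators. -/
theorem cube_card_le_of_three_gen (hM : Cfsg.IsPModular p M) (hcyc : CyclicInfo.{u} p M)
    {G : Type u} [Group G] [Finite G] {B : Set (Cfsg.IrrCharacter G)} (hB : Cfsg.IsPBlock M B)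
    {D : Subgroup G} (hD : Cfsg.IsDefectGroup p M B D) (hab : ∀ a ∈ D, ∀ c ∈ D, a * c = c * a)
    {y x w : G} (hy : y ∈ D) (hx : x ∈ D) (hw : w ∈ D)
    (hgen : D ≤ Subgroup.zpowers y ⊔ Subgroup.zpowers x ⊔ Subgroup.zpowers w)
    (hord : Nat.card D ≤ orderOf y ^ 3) :
    Nat.card B ^ 3 ≤ Nat.card D ^ 5 := by
  have := Fintype.ofFinite G
  have := hM.2.1
  have := H20.BrauerFeit.zpowers_yC_normal y
  obtain ⟨b, Db, hind, hbd, hqb, hDb, hDC, hDbeq⟩ := exists_major_quot hM hB hD hab hy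
  have hyp : ∃ k : ℕ, orderOf y = p ^ k := by
    obtain ⟨k, hk⟩ := IsPGroup.iff_orderOf.1 (H40.isPGroup_of_isDefectGroup hD) ⟨y, hy⟩
    exact ⟨k, by rwa [← Subgroup.orderOf_coe] at hk⟩
  set π := QuotientGroup.mk' (Subgroup.zpowers (yC y))
  have habb : ∀ a ∈ Db, ∀ c ∈ Db, a * c = c * a := by
    subst hDbeq
    rintro _ ⟨a, ha, rfl⟩ _ ⟨c, hc, rfl⟩
    rw [← map_mul, ← map_mul, show a * c = c * a from Subtype.ext (hab _ ha _ hc)]
  have hk2 : Nat.card (quotSet (Subgroup.zpowers (yC y)) b) ≤ Nat.card Db := by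
    refine card_le_of_two_gen hM hcyc hqb hDb habb (y := π ⟨x, hDC hx⟩) (x := π ⟨w, hDC hw⟩)
      ?_ ?_ ?_
    · rw [hDbeq]; exact Subgroup.mem_map_of_mem _ hx
    · subst hDbeq
      rintro _ ⟨c, hc, rfl⟩
      have hc' : c ∈ Subgroup.zpowers (yC y) ⊔ Subgroup.zpowers (⟨x, hDC hx⟩ : CZ y) ⊔
          Subgroup.zpowers (⟨w, hDC hw⟩ : CZ y) := by
        refine (Subgroup.mem_map_iff_mem (f := (CZ y).subtype) Subtype.val_injective).1 ?_
        rw [Subgroup.map_sup, Subgroup.map_sup, MonoidHom.map_zpowers, MonoidHom.map_zpowers,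
          MonoidHom.map_zpowers]
        exact hgen hc
      have := Subgroup.mem_map_of_mem π hc'
      rwa [Subgroup.map_sup, Subgroup.map_sup, (Subgroup.map_eq_bot_iff _).2
        (by rw [QuotientGroup.ker_mk']), bot_sup_eq, MonoidHom.map_zpowers,
        MonoidHom.map_zpowers] at this
    · rw [hDbeq]; exact Subgroup.mem_map_of_mem _ hw
  have hQ : IsPGroup p (Subgroup.zpowers (yC y)) := by
    obtain ⟨k, hk⟩ := hyp
    exact IsPGroup.of_card (n := k) (by rw [Nat.card_zpowers, ← Subgroup.orderOf_coe]; exact hk)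
  have hk1 := card_le_pow_mul_rank hM hyp hind hbd
  have hl := H20.BrauerFeit.blockRank_le_card_quot hM hind.1 hQ (H20.BrauerFeit.sup_centralizer_yC y)
  rw [hbd, ← H40.card_defectGroup hM hB hD] at hk1
  have hk : Nat.card B ≤ Nat.card D * Nat.card Db :=
    hk1.trans (Nat.mul_le_mul_left _ (hl.trans hk2))
  have hmul := card_zpowers_mul hy hDC
  rw [← hDbeq] at hmul
  have hpos : 0 < orderOf y ^ 3 := pow_pos (orderOf_pos y) 3
  refine Nat.le_of_mul_le_mul_right ?_ hpos
  calc Nat.card B ^ 3 * orderOf y ^ 3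
      ≤ (Nat.card D * Nat.card Db) ^ 3 * orderOf y ^ 3 :=
        Nat.mul_le_mul_right _ (Nat.pow_le_pow_left hk 3)
    _ = Nat.card D ^ 6 := by rw [← hmul]; ring
    _ ≤ Nat.card D ^ 5 * orderOf y ^ 3 := by
        rw [show (6 : ℕ) = 5 + 1 from rfl, pow_succ]
        exact Nat.mul_le_mul_left _ hord

end Cfsg.Agent.H31.RankTwo
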